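import Cfsg.Agent.Lib.MO.Wrap

/-! The numerical searches. -/

set_option autoImplicit false
set_option maxRecDepth 100000

namespace Cfsg.Lib.K4

open Cfsg.Lib.Small Cfsg.Lib.MO Cfsg.Lib.Golay

/-- Every candidate for the principal block is `X₀` or is excluded by the column of an involution. -/
noncomputable def chk1 (N p : ℕ) (X₀ : BD) (d : ℕ) : Bool := force d.sqrt fun B =>
  (cand B d p (fun _ => true) fun _ => true).all fun X => (d == N && X == X₀) ||
    run B d (if X.2.2.1 % 2 = 0 then p else 0) (fun k => k % (if X.2.2.1 % 2 = 0 then p else 2) != 0)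
      (fun _ _ => false) [fun _ => [X]]

noncomputable def chk (N p : ℕ) (X₀ : BD) (M : List ℕ) : Bool := force N.sqrt fun B =>
  (divs B N).all fun d => (d % p != 1 || d == 1 || M.contains d) &&
    ((M.all fun m => d % (p * m) != 0) || chk1 N p X₀ d)

theorem chk25 : chk 7800 13 (13, 2, 1, 24, [-25]) [40, 300] = true := by decide +kernel
theorem chk81 : chk 265680 41 (41, 2, 1, 80, [-81]) [3240] = true := by decide +kernel
theorem chk7 : chk 5663616 43 (43, 3, 1, 384, [-343, -42]) [43904] = true := by decide +kernel
theorem chk8 : chk 5515776 19 (19, 3, 1, 567, [-512, -56]) [96, 324, 1008, 96768] = true := by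
  decide +kernel
theorem chk9 : chk 42573600 73 (73, 3, 1, 800, [-729, -72]) [194400] = true := by decide +kernel
theorem chkS8 : chk1 29120 13 (13, 4, 1, 35, [-64, 14, 14]) 29120 = true := by decide +kernel
theorem chkS32 : chk1 32537600 41 (41, 4, 1, 775, [-1024, 124, 124]) 32537600 = true := by decide +kernel

end Cfsg.Lib.K4
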