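import Cfsg.Agent.Lib.Small.Fix
import Cfsg.Agent.Lib.Small.Basic
import Cfsg.Agent.Lib.Inv.Dihedral
import Cfsg.Agent.Lib.CharDeg.Quatern
import Cfsg.Prelude.Def_TwoFusion
import Cfsg.Prelude.Def_CaseTheorems

/-! A character with a constant negative value at the involutions. -/

set_option autoImplicit false

namespace Cfsg.Lib.K4

open Subgroup Cfsg.Lib.Small Finset
open _root_.Cfsg.Lib.Char

variable {G : Type*} [Group G] [Finite G] {χ : G → ℂ} {a b : ℤ} {E : Subgroup G} {r u : G}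

omit [Finite G] in
theorem ord_two (h : u * u = 1) (h1 : u ≠ 1) : orderOf u = 2 :=
  orderOf_eq_prime (by rwa [pow_two]) h1

theorem four_le (hE : ∀ e ∈ E, e * e = 1) (h8 : Nat.card E = 8) (hr : r ∈ normalizer (E : Set G))
    (r2 : r * r = 1) : 4 ≤ Nat.card ↥(E ⊓ centralizer {r}) := by
  have i : ∀ e ∈ E, e⁻¹ = e := fun e he => inv_eq_of_mul_eq_one_right (hE e he)
  have c : ∀ x ∈ E, ∀ y ∈ E, x * y = y * x := fun x hx y hy => by
    rw [← i _ (mul_mem hx hy), mul_inv_rev, i x hx, i y hy]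
  have h : ∀ e ∈ E, r * e * r⁻¹ ∈ E := fun e he => (mem_normalizer_iff.1 hr e).1 he
  have ri : r⁻¹ = r := inv_eq_of_mul_eq_one_right r2
  let f : E →* G := MonoidHom.mk' (fun q => q * (r * q * r⁻¹)) fun x y => by
    change (x * y : G) * (r * (x * y) * r⁻¹) = (x : G) * (r * x * r⁻¹) * ((y : G) * (r * y * r⁻¹))
    rw [← conj_mul, mul_assoc, mul_assoc (x : G), ← mul_assoc (y : G), c _ y.2 _ (h _ x.2),
      mul_assoc _ (y : G)]
  have h1 : Nat.card E ≤ Nat.card ↥(E ⊓ centralizer {r}) * Nat.card ↥(E ⊓ centralizer {r}) := by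
    rw [← f.ker.card_mul_index, index_ker, ← card_subtype E]
    refine Nat.mul_le_mul (card_le_of_le ?_) (card_le_of_le ?_)
    · rintro _ ⟨q, e, rfl⟩
      exact ⟨q.2, mem_centralizer_singleton_iff.2
        (mul_inv_eq_iff_eq_mul.1 ((eq_inv_of_mul_eq_one_right e).trans (i _ q.2))).symm⟩
    · rintro _ ⟨q, rfl⟩
      refine ⟨mul_mem q.2 (h _ q.2), mem_centralizer_singleton_iff.2 (mul_inv_eq_iff_eq_mul.1 ?_).symm⟩
      change r * (q * (r * q * r⁻¹)) * r⁻¹ = q * (r * q * r⁻¹)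
      rw [← conj_mul, c _ q.2 _ (h _ q.2)]
      congr 1
      rw [ri, ← mul_assoc, ← mul_assoc, r2, one_mul, mul_assoc, r2, mul_one]
  have h2 := card_dvd_of_le (inf_le_left (a := E) (b := centralizer {r}))
  rw [h8] at h1 h2
  generalize Nat.card ↥(E ⊓ centralizer {r}) = k at *
  have := Nat.le_of_dvd (by decide) h2
  interval_cases k <;> omega

theorem mem_of_char (hχ : IsCharacter G χ) (h0 : 0 ≤ a + b) (h1 : ∀ t, orderOf t = 2 → χ t = -a)
    (h2 : ∀ u r : G, orderOf u = 4 → r * r = 1 → r * u * r⁻¹ = u⁻¹ → (χ u).re ≤ b)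
    (h3 : charDegree χ + 4 * b < 11 * a) (hE : ∀ e ∈ E, e * e = 1) (h8 : Nat.card E = 8)
    (hr : r ∈ normalizer (E : Set G)) (r2 : r * r = 1) : r ∈ E := by
  classical
  by_contra hn
  have := Fintype.ofFinite E
  have ri : r⁻¹ = r := inv_eq_of_mul_eq_one_right r2
  have i : ∀ e ∈ E, e⁻¹ = e := fun e he => inv_eq_of_mul_eq_one_right (hE e he)
  have c1 := card_mul_fixDim_of_const (A := E) hχ (c := -a) fun x hx e => by
    rw [h1 x (ord_two (hE x hx) e)]; simp
  have c2 := card_mul_avg (χ := χ) (A := E) (g := r)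
  have c3 := (Complex.abs_re_le_norm _).trans (norm_avg_le hχ hr)
  have c4 := four_le hE h8 hr r2
  have c5 : ∀ x : E, (χ (x * r)).re ≤ b - (a + b) * if (x : G) ∈ centralizer {r} then 1 else 0 := fun x => by
    have d1 : (x : G) * r ≠ 1 := fun e => hn (by rw [eq_inv_of_mul_eq_one_right e]; exact inv_mem x.2)
    have d2 : (x : G) * r * (x * r) = x * (r * x * r⁻¹) := by rw [ri]; simp only [mul_assoc]
    split_ifs with e
    · rw [h1 _ (ord_two (by rw [d2, ← mem_centralizer_singleton_iff.1 e, mul_inv_cancel_right, hE _ x.2]) d1)]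
      simp
    · have d3 := mul_mem x.2 ((mem_normalizer_iff.1 hr _).1 x.2)
      rw [mul_zero, sub_zero]
      refine h2 _ r (orderOf_eq_prime_pow (p := 2) (n := 1) (fun f => e ?_) ?_) r2 ?_
      · rw [pow_one, pow_two, d2, mul_eq_one_iff_eq_inv', i _ x.2, mul_inv_eq_iff_eq_mul] at f
        exact mem_centralizer_singleton_iff.2 f.symm
      · rw [show 2 ^ (1 + 1) = 2 + 2 from rfl, pow_add, pow_two, d2, hE _ d3]
      · rw [mul_inv_rev, i _ x.2, ← mul_assoc, mul_inv_cancel_right, ri]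
  have c6 := sum_le_sum fun x (_ : x ∈ univ) => c5 x
  have c7 : Nat.card ↥(E ⊓ centralizer {r}) = #{x : E | (x : G) ∈ centralizer {r}} := by
    rw [← Fintype.card_subtype, ← Nat.card_eq_fintype_card]
    exact Nat.card_congr ⟨fun x => ⟨⟨x, x.2.1⟩, x.2.2⟩, fun x => ⟨x.1, x.1.2, x.2⟩, fun _ => rfl, fun _ => rfl⟩
  rw [← Complex.re_sum, ← c2, sum_sub_distrib, ← mul_sum, sum_boole, ← c7, sum_const, card_univ,
    ← Nat.card_eq_fintype_card, h8] at c6
  rw [h8] at c1
  have c8 : (8 : ℝ) * fixDim χ E = charDegree χ - 7 * a := by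
    have := congrArg (Int.cast : ℤ → ℝ) c1
    push_cast at this
    linarith
  have c9 : (4 : ℝ) ≤ Nat.card ↥(E ⊓ centralizer {r}) := by exact_mod_cast c4
  have c10 : (0 : ℝ) ≤ a + b := by exact_mod_cast h0
  have c11 : (charDegree χ : ℝ) + 4 * b < 11 * a := by exact_mod_cast h3
  simp only [Nat.cast_ofNat, Complex.mul_re, Complex.re_ofNat, Complex.im_ofNat, zero_mul, sub_zero,
    nsmul_eq_mul] at c6
  nlinarith [abs_le.1 c3]

theorem closed_of (S : Sylow 2 G) (hS : E ≤ S) (hE : ∀ e ∈ E, e * e = 1)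
    (h : ∀ r ∈ normalizer (E : Set G), r * r = 1 → r ∈ E) : IsStronglyClosed E (S : Subgroup G) := by
  have h1 : (S : Subgroup G) ≤ normalizer (E : Set G) := by
    have := S.isPGroup'.isNilpotent
    have h2 := normalizerCondition_of_isNilpotent (G := (S : Subgroup G))
      ((normalizer (E : Set G)).subgroupOf S)
    rw [← subgroupOf_eq_top]
    by_contra h3
    obtain ⟨g, h4, h5⟩ := SetLike.exists_of_lt (h2 (lt_top_iff_ne_top.2 h3))
    have h6 : ∀ g : (S : Subgroup G), g ∈ normalizer (((normalizer (E : Set G)).subgroupOf S : Subgroup _) : Set _) →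
        ∀ e ∈ E, (g : G) * e * (g : G)⁻¹ ∈ E := fun g hg e he => h _
      ((mem_normalizer_iff.1 hg ⟨e, hS he⟩).1 (le_normalizer he)) (by
        rw [conj_mul, hE e he, mul_one, mul_inv_cancel])
    exact h5 (mem_normalizer_iff.2 fun e => ⟨h6 g h4 e, fun he => by
      simpa [mul_assoc] using h6 _ (inv_mem h4) _ he⟩)
  exact ⟨hS, fun x hx g hg => h _ (h1 hg) (by rw [conj_mul, hE x hx, mul_one, mul_inv_cancel])⟩

theorem rank_or (hχ : IsCharacter G χ) (h0 : 0 ≤ a + b) (h1 : ∀ t, orderOf t = 2 → χ t = -a)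
    (h2 : ∀ u r : G, orderOf u = 4 → r * r = 1 → r * u * r⁻¹ = u⁻¹ → (χ u).re ≤ b)
    (h3 : charDegree χ + 4 * b < 11 * a) : PRankLE 2 2 G ∨ ∃ (S : Sylow 2 G) (E : Subgroup G),
      E ≠ ⊥ ∧ IsMulCommutative E ∧ IsStronglyClosed E (S : Subgroup G) := by
  refine or_iff_not_imp_left.2 fun h => ?_
  simp only [PRankLE, not_forall, not_le] at h
  obtain ⟨A, a1, a2, a3⟩ := h
  have a4 : IsPGroup 2 A := fun x => ⟨1, Subtype.ext (a2 x x.2)⟩
  obtain ⟨k, hk⟩ := a4.exists_card_eq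
  obtain ⟨B, hB⟩ := Sylow.exists_subgroup_card_pow_prime (G := A) 2 (n := 3) (hk ▸ pow_dvd_pow 2
    ((Nat.pow_lt_pow_iff_right one_lt_two).1 (hk ▸ a3)))
  have b1 : Nat.card (B.map A.subtype) = 8 := (card_map_of_injective (subtype_injective _)).trans hB
  have b2 := map_subtype_le B
  generalize B.map A.subtype = E at b1 b2
  have b3 : ∀ e ∈ E, e * e = 1 := fun e he => pow_two e ▸ a2 e (b2 he)
  obtain ⟨S, hS⟩ := (a4.to_le b2).exists_le_sylow
  exact ⟨S, E, fun e => by simp [e] at b1, ⟨⟨fun x y => Subtype.ext (congrArg Subtype.val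
    (a1.1.1 ⟨x, b2 x.2⟩ ⟨y, b2 y.2⟩) :)⟩⟩, closed_of S hS b3 fun r hr => mem_of_char hχ h0 h1 h2 h3 b3 b1 hr⟩

/-- the fixed space of a dihedral group of order `8` -/
theorem dih_even [Fintype G] (hχ : IsIrrCharacter G χ) (hν : (Nat.card G : ℂ)⁻¹ * ∑ s, χ (s * s) = -1)
    (h1 : ∀ t, orderOf t = 2 → χ t = -a) (hu : orderOf u = 4) (r2 : r * r = 1)
    (h : r * u * r⁻¹ = u⁻¹) : ∃ k : ℕ, χ 1 - 5 * a + 2 * χ u = 16 * k := by
  have u4 : u ^ 4 = 1 := hu ▸ pow_orderOf_eq_one u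
  have hr : r ∉ zpowers u := by
    rintro ⟨k, rfl⟩
    rw [show u ^ k * u = u * u ^ k from ((Commute.refl u).zpow_left k).eq, mul_inv_cancel_right,
      eq_inv_iff_mul_eq_one, ← pow_two, ← orderOf_dvd_iff_pow_eq_one, hu] at h
    omega
  have hi := Inv.dihedralHom_injective r2 h u4 hu hr
  obtain ⟨_, ⟨k, rfl⟩, h2⟩ := CharDeg.even_inner_one_of_fs (Inv.dihedralHom r2 h u4) hχ hν
  have e1 : ∀ d : DihedralGroup 4, orderOf d = 2 → χ (Inv.dihedralHom r2 h u4 d) = -a := fun d hd =>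
    h1 _ ((orderOf_injective _ hi d).trans hd)
  have e2 : χ (Inv.dihedralHom r2 h u4 (.r 1)) = χ u := congrArg χ (zpow_one u)
  have e3 : χ (Inv.dihedralHom r2 h u4 (.r 3)) = χ u := by
    rw [show (DihedralGroup.r 3 : DihedralGroup 4) = (.r 1)⁻¹ by decide, map_inv,
      show Inv.dihedralHom r2 h u4 (.r 1) = u from zpow_one u, ← h]
    exact (hχ.isClassFunction.eq_of_isConj (isConj_iff.2 ⟨r, rfl⟩)).symm
  have e4 : (univ : Finset (DihedralGroup 4)) = {1, .r 1, .r 3, .r 2, .sr 0, .sr 1, .sr 2, .sr 3} := by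
    decide
  refine ⟨k, ?_⟩
  rw [classInner, e4, sum_insert (by decide), sum_insert (by decide), sum_insert (by decide),
    sum_insert (by decide), sum_insert (by decide), sum_insert (by decide), sum_insert (by decide),
    sum_singleton, e2, e3, map_one, e1 _ (ord_two (by decide) (by decide)), e1 _ (DihedralGroup.orderOf_sr _),
    e1 _ (DihedralGroup.orderOf_sr _), e1 _ (DihedralGroup.orderOf_sr _), e1 _ (DihedralGroup.orderOf_sr _)] at h2
  simp [DihedralGroup.card] at h2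
  linear_combination 8 * h2

end Cfsg.Lib.K4
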